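import Cfsg.Agent.H858.P4.E4A

/-!
# S5210, (E4): for `q > 2` no essential subgroup properly contains `V` (helper858)

`stE4 : StE4`.
-/

set_option autoImplicit false

namespace Cfsg.Agent.H858.P4

open Cfsg Cfsg.FusionSystem Cfsg.Agent.H776.P4
open Cfsg.Agent.H756.PU (HypK Ess Inv Com)
open Cfsg.Agent.H801.PU (two_le exists_tr)

universe u

variable {K : Type u} [Field K] [StarRing K] {p n : ℕ}

/-- an essential subgroup is proper -/
theorem not_top {G : Type u} [Group G] {E : Subgroup G} {Γ : Subgroup (MulAut E)}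
    (hE : Ess (⊤ : Subgroup G) E p Γ) : ¬ (⊤ : Subgroup G) ≤ E := by
  intro htop
  obtain ⟨H, -, -, -, hAI, -⟩ := hE.spe
  apply hAI
  rw [autInducedBy, Subgroup.closure_le]
  rintro α ⟨g, -, hg⟩
  exact ⟨⟨g, htop trivial⟩, MulEquiv.ext fun x => Subtype.ext (hg x).symm⟩

/-- `γ([e, v]) = [γ e, γ v]` -/
theorem map_comm {G : Type u} [Group G] {E : Subgroup G} (γ : MulAut E) (e v : E) :
    ((γ (e * v * e⁻¹ * v⁻¹) : E) : G) = (γ e : G) * (γ v : G) * (γ e : G)⁻¹ * (γ v : G)⁻¹ := by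
  simp only [map_mul, map_inv]
  push_cast
  rfl

/-- if `Z` and `V` are invariant then `S ≤ E` -/
theorem fin_step {E : Subgroup (PG K)} {Γ : Subgroup (MulAut E)}
    (hE : Ess (⊤ : Subgroup (PG K)) E p Γ) (hV : Inv Γ (PV K)) (hZ : Inv Γ (PZ K)) {z : PG K} (hzE : z ∈ E)
    (hz : z.r ≠ 0) : False := by
  have hY : Inv Γ (PY K) := by
    refine ⟨PY_le_PV.trans hV.1, fun γ hγ e he => ?_⟩
    have h1 := hV.2 γ hγ e he.1
    refine ⟨h1, ?_⟩
    -- `[z, γ e] = γ [γ⁻¹ z, e] ∈ Z`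
    have h2 : ((γ⁻¹ (⟨z, hzE⟩ : E) * e * (γ⁻¹ (⟨z, hzE⟩ : E))⁻¹ * e⁻¹ : E) : PG K) ∈ PZ K := by
      push_cast
      refine ⟨comm_r _ _, ?_, comm_c _ _⟩
      rw [comm_b _ he.1, he.2, mul_zero]
    have h3 := hZ.2 γ hγ _ h2
    rw [map_comm, MulAut.apply_inv_self] at h3
    have h4 := h3.2.1
    rw [comm_b _ h1] at h4
    exact (mul_eq_zero.1 h4).resolve_left hz
  refine not_top hE (Cfsg.Agent.H732.PU.stChain hE (PZ K) (PY K) (PV K) hZ hY hV PZ_le_PY PY_le_PV ⊤ le_rfl ?_ ?_ ?_ ?_)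
  · intro x _ e _
    exact comm_r x e
  · intro x _ v _
    exact ⟨comm_r x v, comm_c x v⟩
  · intro x _ y hy
    refine ⟨comm_r x y, ?_, comm_c x y⟩
    rw [comm_b x hy.1, hy.2, mul_zero]
  · intro x _ m hm
    exact PZ_comm hm x

/-- `Z` is invariant for `p` odd -/
theorem inv_Z_odd (h2 : (2 : K) ≠ 0) {E : Subgroup (PG K)} {Γ : Subgroup (MulAut E)} (hV : Inv Γ (PV K))
    {z : PG K} (hzE : z ∈ E) (hz : z.r ≠ 0) : Inv Γ (PZ K) := by
  refine ⟨PZ_le_PV.trans hV.1, fun γ hγ e he => ?_⟩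
  have hz' : star z.r ≠ 0 := star_ne_zero.2 hz
  -- `e = [z, [z, v]]`
  have hst : star ((e : PG K).a / (2 * (z.r * star z.r))) = (e : PG K).a / (2 * (z.r * star z.r)) := by
    rw [star_div₀, star_mul', star_mul', star_star, (e : PG K).ha, star_ofNat, mul_comm (star z.r)]
  obtain ⟨v, hvd⟩ : ∃ v : PG K, v = ⟨0, 0, 0, (e : PG K).a / (2 * (z.r * star z.r)), star_zero K, hst⟩ := ⟨_, rfl⟩
  have hvr : v.r = 0 := by rw [hvd]
  have hvb : v.b = 0 := by rw [hvd]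
  have hvc : v.c = (e : PG K).a / (2 * (z.r * star z.r)) := by rw [hvd]
  have hvE : v ∈ E := hV.1 hvr
  obtain ⟨w, hw⟩ : ∃ w : E, w = (⟨z, hzE⟩ : E) * ⟨v, hvE⟩ * (⟨z, hzE⟩ : E)⁻¹ * (⟨v, hvE⟩ : E)⁻¹ := ⟨_, rfl⟩
  have hw' : (w : PG K) = z * v * z⁻¹ * v⁻¹ := by rw [hw]; rfl
  have hwr : (w : PG K).r = 0 := by rw [hw']; exact comm_r _ _
  have hwc : (w : PG K).c = 0 := by rw [hw']; exact comm_c _ _
  have hwb : (w : PG K).b = z.r * v.c := by rw [hw']; exact comm_b _ hvr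
  have he2 : e = (⟨z, hzE⟩ : E) * w * (⟨z, hzE⟩ : E)⁻¹ * w⁻¹ := by
    apply Subtype.ext
    change (e : PG K) = z * (w : PG K) * z⁻¹ * (w : PG K)⁻¹
    ext
    · rw [comm_r, he.1]
    · rw [comm_a _ hwr, hwb, hwc, hvc, star_mul', hst]
      field_simp
      ring
    · rw [comm_b _ hwr, hwc, mul_zero, he.2.1]
    · rw [comm_c, he.2.2]
  have h4 : ((γ e : E) : PG K) = (γ (⟨z, hzE⟩ : E) : PG K) * (γ w : PG K) * (γ (⟨z, hzE⟩ : E) : PG K)⁻¹ *
      (γ w : PG K)⁻¹ := by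
    conv_lhs => rw [he2]
    exact map_comm _ _ _
  have h5 : ((γ w : E) : PG K) = (γ (⟨z, hzE⟩ : E) : PG K) * (γ (⟨v, hvE⟩ : E) : PG K) * (γ (⟨z, hzE⟩ : E) : PG K)⁻¹ *
      (γ (⟨v, hvE⟩ : E) : PG K)⁻¹ := by
    rw [hw]
    exact map_comm _ _ _
  have h6 : ((γ w : E) : PG K).c = 0 := by rw [h5]; exact comm_c _ _
  have h7 : ((γ w : E) : PG K).r = 0 := by rw [h5]; exact comm_r _ _
  rw [h4]
  refine ⟨comm_r _ _, ?_, comm_c _ _⟩
  rw [comm_b _ h7, h6, mul_zero]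

/-- `Z` is invariant if `r(E)` is not contained in a line -/
theorem inv_Z_line {E : Subgroup (PG K)} {Γ : Subgroup (MulAut E)} (hV : Inv Γ (PV K))
    {z : PG K} (hzE : z ∈ E) (hz : z.r ≠ 0) {w : PG K} (hwE : w ∈ E) (hw : star w.r * z.r ≠ w.r * star z.r) :
    Inv Γ (PZ K) := by
  refine ⟨PZ_le_PV.trans hV.1, fun γ hγ e he => ?_⟩
  have hc : ∀ x ∈ E, x * ((γ e : E) : PG K) = ((γ e : E) : PG K) * x := by
    intro x hx
    have h1 : γ⁻¹ ⟨x, hx⟩ * e = e * γ⁻¹ ⟨x, hx⟩ := Subtype.ext (PZ_comm he _)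
    have h2 := congrArg γ h1
    rw [map_mul, map_mul, MulAut.apply_inv_self] at h2
    exact congrArg Subtype.val h2
  have h1 := hV.2 γ hγ e (PZ_le_PV he)
  obtain ⟨a1, a2⟩ := (comm_iff h1).1 (hc z hzE)
  obtain ⟨b1, b2⟩ := (comm_iff h1).1 (hc w hwE)
  refine ⟨h1, ?_, (mul_eq_zero.1 a1).resolve_left hz⟩
  have h3 : (star w.r * z.r - w.r * star z.r) * ((γ e : E) : PG K).b = 0 := by linear_combination z.r * b2 - w.r * a2
  exact (mul_eq_zero.1 h3).resolve_left (sub_ne_zero.2 hw)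

/-- `r(E)` is a full line if it is contained in a line and `p = 2` -/
theorem full_line (h2 : (2 : K) = 0) {E : Subgroup (PG K)} {Γ : Subgroup (MulAut E)}
    (hE : Ess (⊤ : Subgroup (PG K)) E p Γ) (hV : Inv Γ (PV K)) {z : PG K} (hzE : z ∈ E) (hz : z.r ≠ 0)
    (hl : ∀ w ∈ E, star w.r * z.r = w.r * star z.r) (t : K) (ht : star t = t) : ∃ w ∈ E, w.r = t * z.r := by
  have hz' : star z.r ≠ 0 := star_ne_zero.2 hz
  -- `V_α = C_V(E)`
  let M : Subgroup (PG K) :=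
    { carrier := {v | v ∈ PV K ∧ ∀ e ∈ E, e * v = v * e}
      one_mem' := ⟨one_mem _, fun e _ => by rw [mul_one, one_mul]⟩
      mul_mem' := by
        rintro x y ⟨hx, hx'⟩ ⟨hy, hy'⟩
        refine ⟨mul_mem hx hy, fun e he => ?_⟩
        rw [← mul_assoc, hx' e he, mul_assoc, hy' e he, mul_assoc]
      inv_mem' := by
        rintro x ⟨hx, hx'⟩
        refine ⟨inv_mem hx, fun e he => ?_⟩
        have h1 := hx' e he
        calc e * x⁻¹ = x⁻¹ * (x * e) * x⁻¹ := by group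
          _ = x⁻¹ * (e * x) * x⁻¹ := by rw [h1]
          _ = x⁻¹ * e := by group }
  have hM : ∀ {v : PG K}, v ∈ M ↔ v.r = 0 ∧ v.c = 0 ∧ z.r * star v.b + star z.r * v.b = 0 := by
    intro v
    constructor
    · rintro ⟨h1, h3⟩
      obtain ⟨a1, a2⟩ := (comm_iff h1).1 (h3 z hzE)
      exact ⟨h1, (mul_eq_zero.1 a1).resolve_left hz, a2⟩
    · rintro ⟨h1, h3, h4⟩
      refine ⟨h1, fun e he => (comm_iff h1).2 ⟨by rw [h3, mul_zero], ?_⟩⟩
      have h5 := hl e he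
      have h6 : z.r * (e.r * star v.b + star e.r * v.b) = 0 := by
        linear_combination e.r * h4 + v.b * h5
      exact (mul_eq_zero.1 h6).resolve_left hz
  have hMi : Inv Γ M := by
    refine ⟨fun x hx => hV.1 hx.1, fun γ hγ e he => ⟨hV.2 γ hγ e he.1, fun x hx => ?_⟩⟩
    have h1 : γ⁻¹ ⟨x, hx⟩ * e = e * γ⁻¹ ⟨x, hx⟩ := Subtype.ext (he.2 _ (γ⁻¹ ⟨x, hx⟩).2)
    have h3 := congrArg γ h1
    rw [map_mul, map_mul, MulAut.apply_inv_self] at h3
    exact congrArg Subtype.val h3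
  -- `X`
  let X : Subgroup (PG K) :=
    { carrier := {x | star x.r * z.r = x.r * star z.r}
      one_mem' := by
        change star (0 : K) * z.r = 0 * star z.r
        rw [star_zero, zero_mul, zero_mul]
      mul_mem' := by
        intro x y hx hy
        have hx' : star x.r * z.r = x.r * star z.r := hx
        have hy' : star y.r * z.r = y.r * star z.r := hy
        change star (x.r + y.r) * z.r = (x.r + y.r) * star z.r
        rw [star_add]
        linear_combination hx' + hy'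
      inv_mem' := by
        intro x hx
        have hx' : star x.r * z.r = x.r * star z.r := hx
        change star (-x.r) * z.r = (-x.r) * star z.r
        rw [star_neg]
        linear_combination -hx' }
  have hX : ∀ x ∈ X, star x.r * z.r = x.r * star z.r := fun x hx => hx
  have hXE : X ≤ E := by
    refine Cfsg.Agent.H732.PU.stChain hE M M (PV K) hMi hMi hV le_rfl (fun x hx => hx.1) X le_top ?_ ?_ ?_ ?_
    · intro x _ e _
      exact comm_r x e
    · intro x hx v hv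
      have h1 := hX x hx
      refine hM.2 ⟨comm_r _ _, comm_c _ _, ?_⟩
      rw [comm_b x hv, star_mul', v.hc]
      linear_combination v.c * h1 + v.c * x.r * star z.r * h2
    · intro x hx m hm
      have h1 := hX x hx
      obtain ⟨m1, m2, m3⟩ := hM.1 hm
      have h5 : x * m = m * x := by
        refine (comm_iff m1).2 ⟨by rw [m2, mul_zero], ?_⟩
        have h6 : z.r * (x.r * star m.b + star x.r * m.b) = 0 := by
          linear_combination x.r * m3 + m.b * h1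
        exact (mul_eq_zero.1 h6).resolve_left hz
      rw [h5, mul_inv_cancel_right, mul_inv_cancel]
      exact one_mem _
    · intro x hx m hm
      have h1 := hX x hx
      obtain ⟨m1, m2, m3⟩ := hM.1 hm
      refine (comm_iff m1).2 ⟨by rw [m2, mul_zero], ?_⟩
      have h6 : z.r * (x.r * star m.b + star x.r * m.b) = 0 := by
        linear_combination x.r * m3 + m.b * h1
      exact (mul_eq_zero.1 h6).resolve_left hz
  refine ⟨⟨t * z.r, 0, 0, 0, star_zero K, star_zero K⟩, hXE ?_, rfl⟩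
  change star (t * z.r) * z.r = t * z.r * star z.r
  rw [star_mul', ht]
  ring

/-- `Z` is invariant if `r(E)` is a full line and `q > 2` -/
theorem inv_Z_two (h : HypK K p n) {E : Subgroup (PG K)} {Γ : Subgroup (MulAut E)}
    (hV : Inv Γ (PV K)) {z : PG K} (hzE : z ∈ E) (hz : z.r ≠ 0)
    (hl : ∀ w ∈ E, star w.r * z.r = w.r * star z.r) (hf : ∀ t : K, star t = t → ∃ w ∈ E, w.r = t * z.r)
    {s : K} (hs : star s = s) (hs0 : s ≠ 0) (hs1 : s ≠ 1) : Inv Γ (PZ K) := by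
  refine ⟨PZ_le_PV.trans hV.1, fun γ hγ e0 he0 => ?_⟩
  have hz' : star z.r ≠ 0 := star_ne_zero.2 hz
  obtain ⟨θ, hθ⟩ := exists_tr h 1 (star_one K)
  -- two elements of `Y`
  obtain ⟨b1, hb1⟩ : ∃ b1 : K, z.r * star b1 + star z.r * b1 = 1 := by
    refine ⟨θ / star z.r, ?_⟩
    rw [star_div₀, star_star]
    have e1 : z.r * (star θ / z.r) = star θ := by field_simp
    have e2 : star z.r * (θ / star z.r) = θ := by field_simp
    rw [e1, e2, add_comm, hθ]
  -- `[e, v]` for `v = (0, b, 0)`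
  have key : ∀ b : K, z.r * star b + star z.r * b ≠ 0 → ∀ x ∈ PZ K, ∃ e ∈ E, ∀ v : PG K, v.r = 0 → v.c = 0 →
      v.b = b → e * v * e⁻¹ * v⁻¹ = x := by
    intro b hb x hx
    have hst : star (z.r * star b + star z.r * b) = z.r * star b + star z.r * b := by
      rw [star_add, star_mul', star_mul', star_star, star_star]
      ring
    obtain ⟨e, he, her⟩ := hf (x.a / (z.r * star b + star z.r * b)) (by rw [star_div₀, hst, x.ha])
    refine ⟨e, he, fun v hv hvc hvb => ?_⟩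
    ext
    · rw [comm_r, hx.1]
    · rw [comm_a _ hv, hvc, hvb, her, star_mul', star_div₀, hst, x.ha]
      field_simp
      ring
    · rw [comm_b _ hv, hvc, mul_zero, hx.2.1]
    · rw [comm_c, hx.2.2]
  by_contra hcon
  obtain ⟨v1, hv1⟩ : ∃ v : PG K, v = ⟨0, 0, b1, 0, star_zero K, star_zero K⟩ := ⟨_, rfl⟩
  obtain ⟨v2, hv2⟩ : ∃ v : PG K, v = ⟨0, 0, s * b1, 0, star_zero K, star_zero K⟩ := ⟨_, rfl⟩
  have v1r : v1.r = 0 := by rw [hv1]
  have v2r : v2.r = 0 := by rw [hv2]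
  have v1c : v1.c = 0 := by rw [hv1]
  have v2c : v2.c = 0 := by rw [hv2]
  have v1b : v1.b = b1 := by rw [hv1]
  have v2b : v2.b = s * b1 := by rw [hv2]
  have hb2 : z.r * star (s * b1) + star z.r * (s * b1) = s := by
    rw [star_mul', hs]
    linear_combination s * hb1
  have hb1' : z.r * star b1 + star z.r * b1 ≠ 0 := by rw [hb1]; exact one_ne_zero
  have hb2' : z.r * star (s * b1) + star z.r * (s * b1) ≠ 0 := by rw [hb2]; exact hs0
  have v1E : v1 ∈ E := hV.1 v1r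
  have v2E : v2 ∈ E := hV.1 v2r
  obtain ⟨w1, hw1⟩ : ∃ w, w = γ ⟨v1, v1E⟩ := ⟨_, rfl⟩
  obtain ⟨w2, hw2⟩ : ∃ w, w = γ ⟨v2, v2E⟩ := ⟨_, rfl⟩
  have w1r : (w1 : PG K).r = 0 := by rw [hw1]; exact hV.2 γ hγ _ v1r
  have w2r : (w2 : PG K).r = 0 := by rw [hw2]; exact hV.2 γ hγ _ v2r
  -- the images have nonzero `c`
  have hcne : ∀ (b : K), z.r * star b + star z.r * b ≠ 0 → ∀ (v : PG K) (hvE : v ∈ E), v.r = 0 → v.c = 0 → v.b = b →
      ((γ ⟨v, hvE⟩ : E) : PG K).c ≠ 0 := by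
    intro b hb v hvE hvr hvc hvb hc
    apply hcon
    obtain ⟨e, he, hee⟩ := key b hb (e0 : PG K) he0
    have h1 := hee v hvr hvc hvb
    have h2 : e0 = (⟨e, he⟩ : E) * ⟨v, hvE⟩ * (⟨e, he⟩ : E)⁻¹ * (⟨v, hvE⟩ : E)⁻¹ := Subtype.ext h1.symm
    have h3 : ((γ e0 : E) : PG K) = (γ (⟨e, he⟩ : E) : PG K) * (γ (⟨v, hvE⟩ : E) : PG K) *
        (γ (⟨e, he⟩ : E) : PG K)⁻¹ * (γ (⟨v, hvE⟩ : E) : PG K)⁻¹ := by
      conv_lhs => rw [h2]
      exact map_comm _ _ _
    rw [h3]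
    refine ⟨comm_r _ _, ?_, comm_c _ _⟩
    rw [comm_b _ (hV.2 γ hγ ⟨v, hvE⟩ hvr), hc, mul_zero]
  have w1c : (w1 : PG K).c ≠ 0 := by rw [hw1]; exact hcne b1 hb1' v1 v1E v1r v1c v1b
  have w2c : (w2 : PG K).c ≠ 0 := by rw [hw2]; exact hcne (s * b1) hb2' v2 v2E v2r v2c v2b
  -- `[E, w1] = [E, w2]`
  have hsame : ∀ e ∈ E, ∃ e' ∈ E, e * w1 * e⁻¹ * (w1 : PG K)⁻¹ = e' * w2 * e'⁻¹ * (w2 : PG K)⁻¹ := by
    intro e he
    have h1 : (((γ⁻¹ ⟨e, he⟩ * ⟨v1, v1E⟩ * (γ⁻¹ ⟨e, he⟩)⁻¹ * (⟨v1, v1E⟩ : E)⁻¹ : E) : PG K)) ∈ PZ K := by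
      push_cast
      refine ⟨comm_r _ _, ?_, comm_c _ _⟩
      rw [comm_b _ v1r, v1c, mul_zero]
    obtain ⟨f, hf, hff⟩ := key (s * b1) hb2' _ h1
    have h2 := hff v2 v2r v2c v2b
    have h3 : (⟨f, hf⟩ : E) * ⟨v2, v2E⟩ * (⟨f, hf⟩ : E)⁻¹ * (⟨v2, v2E⟩ : E)⁻¹ =
        γ⁻¹ ⟨e, he⟩ * ⟨v1, v1E⟩ * (γ⁻¹ ⟨e, he⟩)⁻¹ * (⟨v1, v1E⟩ : E)⁻¹ := Subtype.ext h2
    have h4 := congrArg (fun x => ((γ x : E) : PG K)) h3
    simp only [map_comm, MulAut.apply_inv_self, ← hw1, ← hw2] at h4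
    exact ⟨(γ ⟨f, hf⟩ : E), (γ ⟨f, hf⟩).2, h4.symm⟩
  -- the resulting equation
  have heq : ∀ t : K, star t = t → t ≠ 0 →
      (w2 : PG K).c * (z.r * star (w1 : PG K).b + star z.r * (w1 : PG K).b + t * (z.r * star z.r) * (w1 : PG K).c) =
      (w1 : PG K).c * (z.r * star (w2 : PG K).b + star z.r * (w2 : PG K).b + t * (z.r * star z.r) * (w1 : PG K).c) := by
    intro t ht ht0
    obtain ⟨e, he, her⟩ := hf t ht
    obtain ⟨e', he', hee⟩ := hsame e he
    have hb := congrArg PG.b hee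
    have ha := congrArg PG.a hee
    rw [comm_b _ w1r, comm_b _ w2r, her] at hb
    rw [comm_a _ w1r, comm_a _ w2r, her] at ha
    have hb' := congrArg star hb
    simp only [star_mul', ht, (w1 : PG K).hc, (w2 : PG K).hc] at hb' ha
    have h1 : t * ((w2 : PG K).c * (z.r * star (w1 : PG K).b + star z.r * (w1 : PG K).b + t * (z.r * star z.r) * (w1 : PG K).c) -
      (w1 : PG K).c * (z.r * star (w2 : PG K).b + star z.r * (w2 : PG K).b + t * (z.r * star z.r) * (w1 : PG K).c)) = 0 := by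
      linear_combination (w2 : PG K).c * ha - (star (w2 : PG K).b + star e'.r * (w2 : PG K).c) * hb -
        ((w2 : PG K).b + t * z.r * (w1 : PG K).c) * hb'
    exact sub_eq_zero.1 ((mul_eq_zero.1 h1).resolve_left ht0)
  have q1 := heq 1 (star_one K) one_ne_zero
  have q2 := heq s hs hs0
  have hcc : (w1 : PG K).c = (w2 : PG K).c := by
    have h1 : ((s - 1) * (z.r * star z.r) * (w1 : PG K).c) * ((w1 : PG K).c - (w2 : PG K).c) = 0 := by
      linear_combination q1 - q2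
    have h3 : (s - 1) * (z.r * star z.r) * (w1 : PG K).c ≠ 0 :=
      mul_ne_zero (mul_ne_zero (sub_ne_zero.2 hs1) (mul_ne_zero hz hz')) w1c
    exact sub_eq_zero.1 ((mul_eq_zero.1 h1).resolve_left h3)
  have hbb : z.r * star (w1 : PG K).b + star z.r * (w1 : PG K).b = z.r * star (w2 : PG K).b + star z.r * (w2 : PG K).b := by
    rw [← hcc] at q1
    have h1 := mul_left_cancel₀ w1c q1
    linear_combination h1
  -- `w1⁻¹ w2` commutes with `E`
  have hd : ∀ e ∈ E, e * ((w1⁻¹ * w2 : E) : PG K) = ((w1⁻¹ * w2 : E) : PG K) * e := by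
    intro e he
    have hr : ((w1⁻¹ * w2 : E) : PG K).r = 0 := by
      change ((w1 : PG K)⁻¹ * (w2 : PG K)).r = 0
      rw [PG.mul_r, PG.inv_r, w1r, w2r, neg_zero, add_zero]
    have hc : ((w1⁻¹ * w2 : E) : PG K).c = 0 := by
      change ((w1 : PG K)⁻¹ * (w2 : PG K)).c = 0
      rw [PG.mul_c, PG.inv_c, hcc, neg_add_cancel]
    have hb : ((w1⁻¹ * w2 : E) : PG K).b = (w2 : PG K).b - (w1 : PG K).b := by
      change ((w1 : PG K)⁻¹ * (w2 : PG K)).b = _
      simp only [PG.mul_b, PG.inv_b, PG.inv_r, w1r]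
      ring
    refine (comm_iff hr).2 ⟨by rw [hc, mul_zero], ?_⟩
    rw [hb, star_sub]
    have h5 := hl e he
    have h6 : z.r * (e.r * (star (w2 : PG K).b - star (w1 : PG K).b) + star e.r * ((w2 : PG K).b - (w1 : PG K).b)) = 0 := by
      linear_combination ((w2 : PG K).b - (w1 : PG K).b) * h5 - e.r * hbb
    exact (mul_eq_zero.1 h6).resolve_left hz
  -- so `v1⁻¹ v2` commutes with `z`
  have h1 : γ (⟨z, hzE⟩ : E) * (w1⁻¹ * w2) = (w1⁻¹ * w2) * γ ⟨z, hzE⟩ := Subtype.ext (hd _ (γ ⟨z, hzE⟩).2)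
  have h2 : (⟨z, hzE⟩ : E) * ((⟨v1, v1E⟩ : E)⁻¹ * ⟨v2, v2E⟩) = ((⟨v1, v1E⟩ : E)⁻¹ * ⟨v2, v2E⟩) * ⟨z, hzE⟩ := by
    apply γ.injective
    simp only [map_mul, map_inv, ← hw1, ← hw2]
    exact h1
  have h3 : z * (v1⁻¹ * v2) = (v1⁻¹ * v2) * z := congrArg Subtype.val h2
  have hr : (v1⁻¹ * v2).r = 0 := by rw [PG.mul_r, PG.inv_r, v1r, v2r, neg_zero, add_zero]
  have h4 := ((comm_iff hr).1 h3).2
  rw [inv_mul_b v1c v2c, v1b, v2b, star_sub] at h4
  apply hs1
  linear_combination h4 - hb2 + hb1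

/-- **(E4)** -/
theorem stE4 : StE4.{u} := by
  intro K _ _ p n h hq E Γ hE hVE
  by_contra hne
  have hfin := h.fin
  obtain ⟨z, hzE, hz⟩ : ∃ z ∈ E, z.r ≠ 0 := by
    by_contra hcon
    push Not at hcon
    exact hne (le_antisymm hcon hVE)
  have hV : Inv Γ (PV K) := ⟨hVE, fun γ _ e he => inv_V h hVE γ e he⟩
  have hZ : Inv Γ (PZ K) := by
    by_cases h2 : (2 : K) = 0
    · by_cases hl : ∀ w ∈ E, star w.r * z.r = w.r * star z.r
      · obtain ⟨s, hs, hs0, hs1⟩ : ∃ s : K, star s = s ∧ s ≠ 0 ∧ s ≠ 1 := by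
          by_contra hcon
          push Not at hcon
          have h3 := card_fix h
          have h4 : {x : K | star x = x} ⊆ {0, 1} := by
            intro x hx
            by_cases hx0 : x = 0
            · exact Or.inl hx0
            · exact Or.inr (hcon x hx hx0)
          have h5 : Nat.card {x : K | star x = x} ≤ Nat.card ({0, 1} : Set K) :=
            Nat.card_mono (Set.toFinite _) h4
          have h6 : Nat.card ({0, 1} : Set K) ≤ 2 := by
            rw [Nat.card_coe_set_eq]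
            exact (Set.ncard_insert_le 0 {1}).trans (by rw [Set.ncard_singleton])
          omega
        exact inv_Z_two h hV hzE hz hl (fun t ht => full_line h2 hE hV hzE hz hl t ht) hs hs0 hs1
      · push Not at hl
        obtain ⟨w, hwE, hw⟩ := hl
        exact inv_Z_line hV hzE hz hwE hw
    · exact inv_Z_odd h2 hV hzE hz
  exact fin_step hE hV hZ hzE hz

end Cfsg.Agent.H858.P4
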