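import Cfsg.Agent.H776.P4.Stmts
import Cfsg.Agent.H801.PU.Cnt
import Cfsg.Agent.H732.PU.Chain

/-!
# S5210, (E4), part A: coordinates, counting, `V` is the only abelian subgroup of order `q⁴` (helper858)

* `comm_r`, `comm_c`, `comm_b`, `comm_a` : the coordinates of `[e, v]`, `v ∈ V`
* `comm_iff` : `e v = v e`
* `inv_V` : every automorphism of `E ≥ V` maps `V` to `V`
-/

set_option autoImplicit false

namespace Cfsg.Agent.H858.P4

open Cfsg Cfsg.FusionSystem Cfsg.Agent.H776.P4
open Cfsg.Agent.H756.PU (HypK Ess Inv Com)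
open Cfsg.Agent.H801.PU (card_le_of_fiber card_lin card_fix_le card_ker card_ker_le two_le exists_tr)

universe u

variable {K : Type u} [Field K] [StarRing K]

theorem mem_PZ {g : PG K} : g ∈ PZ K ↔ g.r = 0 ∧ g.b = 0 ∧ g.c = 0 := Iff.rfl
theorem mem_PY {g : PG K} : g ∈ PY K ↔ g.r = 0 ∧ g.c = 0 := Iff.rfl
theorem mem_PV {g : PG K} : g ∈ PV K ↔ g.r = 0 := Iff.rfl

theorem PZ_le_PY : PZ K ≤ PY K := fun _ h => ⟨h.1, h.2.2⟩
theorem PY_le_PV : PY K ≤ PV K := fun _ h => h.1
theorem PZ_le_PV : PZ K ≤ PV K := fun _ h => h.1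

theorem comm_r (e v : PG K) : (e * v * e⁻¹ * v⁻¹).r = 0 := by
  simp only [PG.mul_r, PG.inv_r]; ring

theorem comm_c (e v : PG K) : (e * v * e⁻¹ * v⁻¹).c = 0 := by
  simp only [PG.mul_c, PG.inv_c]; ring

theorem comm_b (e : PG K) {v : PG K} (hv : v.r = 0) : (e * v * e⁻¹ * v⁻¹).b = e.r * v.c := by
  simp only [PG.mul_b, PG.mul_r, PG.inv_b, PG.inv_r, PG.inv_c, hv]; ring

theorem comm_a (e : PG K) {v : PG K} (hv : v.r = 0) : (e * v * e⁻¹ * v⁻¹).a =
    e.r * star v.b + star e.r * v.b + e.r * star e.r * v.c := by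
  simp only [PG.mul_a, PG.mul_r, PG.inv_a, PG.inv_b, PG.inv_r, PG.inv_c, hv, star_add, star_neg, star_mul',
    star_zero, e.hc, v.hc]
  ring

theorem comm_iff {e v : PG K} (hv : v.r = 0) : e * v = v * e ↔
    e.r * v.c = 0 ∧ e.r * star v.b + star e.r * v.b = 0 := by
  constructor
  · intro h
    have h1 : e * v * e⁻¹ * v⁻¹ = 1 := by rw [h]; group
    have hb := comm_b e hv
    have ha := comm_a e hv
    rw [h1, PG.one_b] at hb
    rw [h1, PG.one_a] at ha
    exact ⟨hb.symm, by linear_combination -ha + star e.r * hb⟩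
  · rintro ⟨hb, ha⟩
    have h1 : e * v * e⁻¹ * v⁻¹ = 1 := by
      ext
      · rw [comm_r, PG.one_r]
      · rw [comm_a e hv, PG.one_a]
        linear_combination ha + star e.r * hb
      · rw [comm_b e hv, PG.one_b, hb]
      · rw [comm_c, PG.one_c]
    calc e * v = e * v * e⁻¹ * v⁻¹ * (v * e) := by group
      _ = v * e := by rw [h1, one_mul]

theorem PV_comm {v w : PG K} (hv : v ∈ PV K) (hw : w ∈ PV K) : v * w = w * v := by
  rw [mem_PV] at hv hw
  rw [comm_iff hw, hv]
  simp

theorem PZ_comm {z : PG K} (hz : z ∈ PZ K) (g : PG K) : g * z = z * g := by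
  rw [comm_iff hz.1, hz.2.1, hz.2.2]
  simp

section count

variable {p n : ℕ}

theorem finite_PG (h : HypK K p n) : Finite (PG K) := by
  have := h.fin
  refine Finite.of_injective (fun g : PG K => (g.r, g.a, g.b, g.c)) ?_
  intro g h hgh
  simp only [Prod.mk.injEq] at hgh
  obtain ⟨h1, h2, h3, h4⟩ := hgh
  exact PG.ext h1 h2 h3 h4

theorem card_fix (h : HypK K p n) : Nat.card {x : K | star x = x} = p ^ n := by
  have := h.fin
  refine le_antisymm (card_fix_le h) ?_
  let Y : AddSubgroup K :=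
    { carrier := {x | x + star x = 0}
      zero_mem' := by
        change (0 : K) + star 0 = 0
        rw [star_zero, add_zero]
      add_mem' := fun {a b} ha hb => by
        have ha' : a + star a = 0 := ha
        have hb' : b + star b = 0 := hb
        change a + b + star (a + b) = 0
        rw [star_add]
        linear_combination ha' + hb'
      neg_mem' := fun {a} ha => by
        have ha' : a + star a = 0 := ha
        change -a + star (-a) = 0
        rw [star_neg]
        linear_combination -ha' }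
  have h1 := Cfsg.Agent.H801.PU.card_le_of_fiber_add (⊤ : AddSubgroup K) Y (fun x => x + star x) {x : K | star x = x}
    (fun x _ => by
      change star (x + star x) = x + star x
      rw [star_add, star_star]; ring)
    (fun x _ y _ hxy => by
      have hxy' : x + star x = y + star y := hxy
      change -x + y + star (-x + y) = 0
      rw [star_add, star_neg]
      linear_combination -hxy')
  rw [AddSubgroup.card_top, h.card, pow_two] at h1
  have h2 : Nat.card Y ≤ p ^ n := card_ker_le h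
  have h3 : 0 < p ^ n := by have := two_le h; omega
  have h4 := h1.trans (Nat.mul_le_mul_left _ h2)
  exact Nat.le_of_mul_le_mul_right h4 h3

theorem card_PZ_le (h : HypK K p n) (X : Subgroup (PG K)) (hX : X ≤ PZ K) : Nat.card X ≤ p ^ n := by
  have := h.fin
  have := finite_PG h
  have h1 := card_le_of_fiber X ⊥ (fun x => x.a) {x : K | star x = x} (fun x _ => x.ha)
    (fun x hx y hy hxy => by
      have hxy' : x.a = y.a := hxy
      have hx' := hX hx
      have hy' := hX hy
      have e : x = y := PG.ext (hx'.1.trans hy'.1.symm) hxy' (hx'.2.1.trans hy'.2.1.symm) (hx'.2.2.trans hy'.2.2.symm)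
      rw [e, inv_mul_cancel]
      exact Subgroup.one_mem _)
  rw [Subgroup.card_bot, mul_one] at h1
  exact h1.trans (card_fix_le h)

theorem inv_mul_b {x y : PG K} (hx : x.c = 0) (hy : y.c = 0) : (x⁻¹ * y).b = y.b - x.b := by
  simp only [PG.mul_b, PG.inv_b, PG.inv_r, hx, hy]; ring

theorem card_C_le (h : HypK K p n) {z : PG K} (hz : z.r ≠ 0) (X : Subgroup (PG K)) (hX : X ≤ PV K)
    (hc : ∀ x ∈ X, z * x = x * z) : Nat.card X ≤ (p ^ n) ^ 2 := by
  have := h.fin
  have := finite_PG h
  have h0 : ∀ x ∈ X, x.c = 0 := fun x hx => by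
    have h1 := ((comm_iff (hX hx)).1 (hc x hx)).1
    exact (mul_eq_zero.1 h1).resolve_left hz
  have h1 := card_le_of_fiber X (X ⊓ PZ K) (fun x => x.b) {x : K | star x + (star z.r / z.r) * x = 0}
    (fun x hx => by
      have h1 := ((comm_iff (hX hx)).1 (hc x hx)).2
      change star x.b + (star z.r / z.r) * x.b = 0
      have h2 : z.r * (star x.b + (star z.r / z.r) * x.b) = 0 := by
        field_simp
        linear_combination h1
      exact (mul_eq_zero.1 h2).resolve_left hz)
    (fun x hx y hy hxy => by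
      have hxy' : x.b = y.b := hxy
      have hm := X.mul_mem (X.inv_mem hx) hy
      refine ⟨hm, hX hm, ?_, h0 _ hm⟩
      rw [inv_mul_b (h0 x hx) (h0 y hy), hxy', sub_self])
  calc Nat.card X ≤ _ := h1
    _ ≤ p ^ n * p ^ n := Nat.mul_le_mul (card_lin h _) (card_PZ_le h _ inf_le_right)
    _ = (p ^ n) ^ 2 := (pow_two _).symm

theorem card_PV_ge (h : HypK K p n) : (p ^ n) ^ 4 ≤ Nat.card (PV K) := by
  have := h.fin
  have := finite_PG h
  have h1 : Nat.card ((K × {x : K | star x = x}) × {x : K | star x = x}) ≤ Nat.card (PV K) := by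
    refine Nat.card_le_card_of_injective (fun x : (K × {x : K | star x = x}) × {x : K | star x = x} =>
      (⟨⟨0, x.1.2, x.1.1, x.2, x.1.2.2, x.2.2⟩, rfl⟩ : PV K)) ?_
    rintro ⟨⟨b, a⟩, c⟩ ⟨⟨b', a'⟩, c'⟩ h
    have h0 := congrArg Subtype.val h
    have k1 : (a : K) = a' := congrArg PG.a h0
    have k2 : b = b' := congrArg PG.b h0
    have k3 : (c : K) = c' := congrArg PG.c h0
    rw [k2, Subtype.ext k1, Subtype.ext k3]
  refine le_trans (le_of_eq ?_) h1
  rw [Nat.card_prod, Nat.card_prod, h.card, card_fix h]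
  ring

/-- an abelian subgroup not contained in `V` is small -/
theorem card_abelian_lt (h : HypK K p n) (X : Subgroup (PG K)) (hX : ∀ x ∈ X, ∀ y ∈ X, x * y = y * x)
    {z : PG K} (hzX : z ∈ X) (hz : z.r ≠ 0) : Nat.card X < (p ^ n) ^ 4 := by
  have := h.fin
  have := finite_PG h
  have hq := two_le h
  have hlt : (p ^ n) ^ 3 < (p ^ n) ^ 4 := Nat.pow_lt_pow_right (by omega) (by norm_num)
  refine lt_of_le_of_lt ?_ hlt
  by_cases hl : ∀ x ∈ X, star x.r * z.r = x.r * star z.r
  · have h1 := card_le_of_fiber X (X ⊓ PV K) (fun x => x.r) {x : K | star x + (-(star z.r / z.r)) * x = 0}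
      (fun x hx => by
        have h3 := hl x hx
        change star x.r + (-(star z.r / z.r)) * x.r = 0
        have h5 : z.r * (star x.r + (-(star z.r / z.r)) * x.r) = 0 := by
          field_simp
          linear_combination h3
        exact (mul_eq_zero.1 h5).resolve_left hz)
      (fun x hx y hy hxy => by
        have hxy' : x.r = y.r := hxy
        refine ⟨X.mul_mem (X.inv_mem hx) hy, ?_⟩
        change (x⁻¹ * y).r = 0
        rw [PG.mul_r, PG.inv_r, hxy', neg_add_cancel])
    have h2 := card_C_le h hz (X ⊓ PV K) inf_le_right fun x hx => hX z hzX x hx.1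
    calc Nat.card X ≤ _ := h1
      _ ≤ p ^ n * (p ^ n) ^ 2 := Nat.mul_le_mul (card_lin h _) h2
      _ = (p ^ n) ^ 3 := by ring
  · push Not at hl
    obtain ⟨w, hwX, hw⟩ := hl
    have h1 := card_le_of_fiber X (X ⊓ PV K) (fun x => x.r) Set.univ (fun x _ => Set.mem_univ _)
      (fun x hx y hy hxy => by
        have hxy' : x.r = y.r := hxy
        refine ⟨X.mul_mem (X.inv_mem hx) hy, ?_⟩
        change (x⁻¹ * y).r = 0
        rw [PG.mul_r, PG.inv_r, hxy', neg_add_cancel])
    rw [Nat.card_univ, h.card] at h1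
    have h2 := card_PZ_le h (X ⊓ PV K) (fun x hx => by
      obtain ⟨a1, a2⟩ := (comm_iff hx.2).1 (hX z hzX x hx.1)
      obtain ⟨b1, b2⟩ := (comm_iff hx.2).1 (hX w hwX x hx.1)
      refine ⟨hx.2, ?_, (mul_eq_zero.1 a1).resolve_left hz⟩
      have h3 : (star w.r * z.r - w.r * star z.r) * x.b = 0 := by linear_combination z.r * b2 - w.r * a2
      exact (mul_eq_zero.1 h3).resolve_left (sub_ne_zero.2 hw))
    calc Nat.card X ≤ _ := h1
      _ ≤ (p ^ n) ^ 2 * p ^ n := Nat.mul_le_mul_left _ h2
      _ = (p ^ n) ^ 3 := by ring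

/-- `V` is invariant under every automorphism of `E ≥ V` -/
theorem inv_V (h : HypK K p n) {E : Subgroup (PG K)} (hVE : PV K ≤ E) (γ : MulAut E) (e : E)
    (he : (e : PG K) ∈ PV K) : ((γ e : E) : PG K) ∈ PV K := by
  by_contra hcon
  obtain ⟨X, hX⟩ : ∃ X, X = (((PV K).subgroupOf E).map γ.toMonoidHom).map E.subtype := ⟨_, rfl⟩
  have hmem : ∀ y, y ∈ X ↔ ∃ e : E, (e : PG K) ∈ PV K ∧ ((γ e : E) : PG K) = y := by
    intro y
    rw [hX]
    simp only [Subgroup.mem_map, Subgroup.mem_subgroupOf]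
    constructor
    · rintro ⟨_, ⟨e, he, rfl⟩, rfl⟩
      exact ⟨e, he, rfl⟩
    · rintro ⟨e, he, rfl⟩
      exact ⟨_, ⟨e, he, rfl⟩, rfl⟩
  have hcard : Nat.card X = Nat.card (PV K) := by
    rw [hX, Subgroup.card_map_of_injective E.subtype_injective, Subgroup.card_map_of_injective γ.injective]
    exact Nat.card_congr (Subgroup.subgroupOfEquivOfLe hVE).toEquiv
  have hab : ∀ x ∈ X, ∀ y ∈ X, x * y = y * x := by
    intro x hx y hy
    obtain ⟨e1, he1, rfl⟩ := (hmem x).1 hx
    obtain ⟨e2, he2, rfl⟩ := (hmem y).1 hy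
    have h1 : e1 * e2 = e2 * e1 := Subtype.ext (PV_comm he1 he2)
    have h2 := congrArg γ h1
    rw [map_mul, map_mul] at h2
    exact congrArg Subtype.val h2
  have h1 := card_abelian_lt h X hab ((hmem _).2 ⟨e, he, rfl⟩) hcon
  have h2 := card_PV_ge h
  omega

end count

end Cfsg.Agent.H858.P4
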